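import Cfsg.Agent.H6.UBChain
import Cfsg.Agent.H6.DCE4
import Cfsg.Agent.H4.Golay
import Cfsg.Prelude.Def_Spor_Conway

/-! The Leech lattice: membership, generators, automorphisms from matrices. -/

set_option autoImplicit false
set_option maxRecDepth 100000

namespace Cfsg.H6.Leech

open Cfsg.H4.Golay Matrix

/-- The lift of a binary word. -/
def lf (c : GolayPt → ZMod 2) (i : GolayPt) : ℤ := if c i = 0 then 0 else 1

theorem lf_add (c d : GolayPt → ZMod 2) (i : GolayPt) :
    2 * lf (c + d) i ≡ 2 * lf c i + 2 * lf d i [ZMOD 4] := by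
  unfold lf
  rw [Pi.add_apply]
  generalize c i = a
  generalize d i = b
  revert a b
  decide

theorem lf_cases (c : GolayPt → ZMod 2) (i : GolayPt) : lf c i = 0 ∨ lf c i = 1 := by
  unfold lf
  split_ifs <;> simp

theorem lf_one_add (c : GolayPt → ZMod 2) (i : GolayPt) : lf (1 + c) i = 1 - lf c i := by
  unfold lf
  rw [Pi.add_apply, Pi.one_apply]
  generalize c i = a
  revert a
  decide

theorem lf_wd (m : ℕ) (p : GolayPt) : lf (wd m) p = if m.testBit (idx p) then 1 else 0 := by
  unfold lf wd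
  cases m.testBit (idx p) <;> simp

theorem one_mem_code : (1 : GolayPt → ZMod 2) ∈ golayCode :=
  Submodule.subset_span (Set.mem_union_right _ rfl)

/-- The congruence description of the lattice. -/
def LP (x : GolayPt → ℤ) : Prop :=
  ∃ m : ℤ, ∃ c ∈ golayCode, (∀ i, x i ≡ m + 2 * lf c i [ZMOD 4]) ∧ ∑ i, x i ≡ 4 * m [ZMOD 8]

/-- The vectors with the congruence description. -/
def LG : AddSubgroup (GolayPt → ℤ) where
  carrier := {x | LP x}
  zero_mem' := ⟨0, 0, Submodule.zero_mem _, fun i => by simp [lf], by simp⟩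
  add_mem' := by
    rintro x y ⟨m, c, hc, h1, h2⟩ ⟨n, d, hd, h3, h4⟩
    refine ⟨m + n, c + d, Submodule.add_mem _ hc hd, fun i => ?_, ?_⟩
    · have a := h1 i
      have b := h3 i
      have e := lf_add c d i
      unfold Int.ModEq at *
      rw [Pi.add_apply]
      omega
    · simp only [Pi.add_apply, Finset.sum_add_distrib]
      unfold Int.ModEq at *
      omega
  neg_mem' := by
    rintro x ⟨m, c, hc, h1, h2⟩
    refine ⟨-m, c, hc, fun i => ?_, ?_⟩
    · have a := h1 i
      unfold Int.ModEq at *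
      rw [Pi.neg_apply]
      omega
    · simp only [Pi.neg_apply, Finset.sum_neg_distrib]
      unfold Int.ModEq at *
      omega

theorem lp_of_mem {x : GolayPt → ℤ} (h : x ∈ leechLattice) : LP x := by
  refine (AddSubgroup.closure_le LG).mpr ?_ h
  rintro x ⟨m, h1, h2, h3⟩
  obtain ⟨c, hc, e⟩ := h3 (m + 2)
  refine ⟨m, c, hc, fun i => ?_, h2⟩
  have a := h1 i
  have b : c i ≠ 0 ↔ x i ≡ m + 2 [ZMOD 4] := by
    have := Finset.ext_iff.mp e i
    simpa [support₂] using this
  unfold lf
  unfold Int.ModEq at *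
  split_ifs with h0
  · have : ¬ _ := fun h => b.mpr h h0
    omega
  · have := b.mp h0
    omega

theorem mem_of_lp {x : GolayPt → ℤ} (h : LP x) : x ∈ leechLattice := by
  obtain ⟨m, c, hc, h1, h2⟩ := h
  refine AddSubgroup.subset_closure ⟨m, fun i => ?_, h2, fun k => ?_⟩
  · have a := h1 i
    unfold Int.ModEq at *
    omega
  · have key : ∀ d ∈ golayCode, (∀ i, x i ≡ k [ZMOD 4] ↔ lf d i = 1) →
        (Finset.univ.filter fun i => x i ≡ k [ZMOD 4]) ∈
          supports (golayCode : Set (GolayPt → ZMod 2)) := fun d hd e =>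
      ⟨d, hd, by
        ext i
        simp only [support₂, Finset.mem_filter, Finset.mem_univ, true_and, e, lf]
        split_ifs with h <;> simp [h]⟩
    by_cases k1 : k % 4 = (m + 2) % 4
    · refine key c hc fun i => ?_
      have a := h1 i
      have b := lf_cases c i
      unfold Int.ModEq at *
      omega
    by_cases k2 : k % 4 = m % 4
    · refine key (1 + c) (Submodule.add_mem _ one_mem_code hc) fun i => ?_
      have a := h1 i
      have b := lf_cases c i
      rw [lf_one_add]
      unfold Int.ModEq at *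
      omega
    · refine key 0 (Submodule.zero_mem _) fun i => ?_
      have a := h1 i
      have b := lf_cases c i
      have e : lf 0 i = 0 := by simp [lf]
      unfold Int.ModEq at *
      omega

/-- The description with a prescribed residue. -/
theorem LP.norm {x : GolayPt → ℤ} (h : LP x) {p : GolayPt} {r : ℤ} (hr : x p ≡ r [ZMOD 2]) :
    ∃ c ∈ golayCode, ∀ i, x i ≡ r + 2 * lf c i [ZMOD 4] := by
  obtain ⟨m, c, hc, h1, -⟩ := h
  have a := h1 p
  by_cases k : m % 4 = r % 4
  · refine ⟨c, hc, fun i => ?_⟩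
    have b := h1 i
    unfold Int.ModEq at *
    omega
  · refine ⟨1 + c, Submodule.add_mem _ one_mem_code hc, fun i => ?_⟩
    have b := h1 i
    rw [lf_one_add]
    unfold Int.ModEq at *
    omega

/-- An entry of a packed vector. -/
def ent (c i : ℕ) : ℤ := Int.subNatNat (Nat.land (Nat.shiftRight c (Nat.mul 5 i)) 31) 8

/-- A packed vector. -/
def vec (c : ℕ) : GolayPt → ℤ := fun p => ent c (idx p)

/-- A packed matrix. -/
def mat (c : ℕ) : Matrix GolayPt GolayPt ℤ := fun p q => ent c (24 * idx p + idx q)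

/-- The sum over the 24 points. -/
noncomputable def sm (f : ℕ → ℤ) : ℤ :=
  @Nat.rec (fun _ => ℤ) 0 (fun i acc => Int.add acc (f i)) 24

theorem sm_eq (f : ℕ → ℤ) : sm f = ∑ p : GolayPt, f (idx p) := by
  have h1 : ∀ n, @Nat.rec (fun _ => ℤ) 0 (fun i acc => Int.add acc (f i)) n =
      ∑ i ∈ Finset.range n, f i := fun n => by
    induction n with
    | zero => rfl
    | succ n ih => rw [Finset.sum_range_succ, ← ih]; rfl
  rw [sm, h1]
  refine Finset.sum_bij' (fun i _ => pt i) (fun p _ => idx p) (by simp) (by simp [idx_lt]) ?_ ?_ ?_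
  · intro i hi
    exact idx_pt i (Finset.mem_range.mp hi)
  · intro p _
    exact pt_idx p
  · intro i hi
    rw [idx_pt i (Finset.mem_range.mp hi)]

/-- The mask of the coordinates that are not congruent to `m` modulo four. -/
noncomputable def msk4 (f : ℕ → ℤ) (m : ℤ) : ℕ :=
  @Nat.rec (fun _ => ℕ) 0 (fun i acc => if (f i - m) % 4 = 0 then acc else acc + 2 ^ i) 24

/-- A check for lattice membership. -/
noncomputable def lpChk (f : ℕ → ℤ) : Bool :=
  frcB (fun c => H4.Golay.red basis c == 0 && decide ((sm f - 4 * f 0) % 8 = 0) &&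
    (List.range 24).all fun i => decide ((f i - f 0 - if c.testBit i then 2 else 0) % 4 = 0))
    (msk4 f (f 0))

theorem mem_of_lpChk {f : ℕ → ℤ} (h : lpChk f = true) : (fun p => f (idx p)) ∈ leechLattice := by
  unfold lpChk at h
  rw [frcB_eq] at h
  generalize msk4 f (f 0) = c at h
  simp only [Bool.and_eq_true, beq_iff_eq, decide_eq_true_eq, List.all_eq_true, List.mem_range] at h
  refine mem_of_lp ⟨f 0, wd c, wd_mem h.1.1, fun p => ?_, ?_⟩
  · have := h.2 _ (idx_lt p)
    rw [lf_wd]
    unfold Int.ModEq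
    beta_reduce
    split_ifs at this ⊢ <;> omega
  · have := h.1.2
    rw [sm_eq] at this
    unfold Int.ModEq
    beta_reduce
    omega

/-- Generators of the lattice, as functions of the number of the point. -/
def gn (k i : ℕ) : ℤ :=
  if k = 0 then (if i = 23 then -3 else 1)
  else if k = 1 then (if i = 23 then 8 else 0)
  else if k < 25 then (if i = k - 2 then 4 else if i = 23 then -4 else 0)
  else if (basis.getD (k - 25) 0).testBit i then 2 else 0

theorem le_of_gens (S : AddSubgroup (GolayPt → ℤ)) (h : ∀ k < 37, (fun p => gn k (idx p)) ∈ S) :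
    leechLattice ≤ S := by
  have k4 : ∀ y : GolayPt → ℤ, (∀ i, y i % 4 = 0) → (∑ i, y i) % 8 = 0 → y ∈ S := by
    intro y h1 h2
    have e : y = ∑ p : GolayPt, (y p / 4) • (if p = none then 0 else fun q => gn (idx p + 2) (idx q)) +
        ((∑ i, y i) / 8) • fun q => gn 1 (idx q) := by
      have a : ∀ p q : GolayPt, (if p = none then (0 : GolayPt → ℤ) else
          fun q => gn (idx p + 2) (idx q)) q =
          (if p = q then 4 else 0) - if q = none then 4 else 0 := by decide +kernel
      have b : ∀ q : GolayPt, gn 1 (idx q) = if q = none then 8 else 0 := by decide +kernel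
      have c : ∑ p, y p / 4 * 4 = ∑ p, y p := Finset.sum_congr rfl fun p _ => by
        have := h1 p
        omega
      ext q
      simp only [Pi.add_apply, Finset.sum_apply, Pi.smul_apply, smul_eq_mul, a, b, mul_sub,
        Finset.sum_sub_distrib, mul_ite, mul_zero, Finset.sum_ite_eq', Finset.mem_univ, if_true]
      have := h1 q
      split_ifs
      · rw [c]
        omega
      · simp only [Finset.sum_const_zero]
        omega
    rw [e]
    refine S.add_mem (S.sum_mem fun p _ => S.zsmul_mem ?_ _) (S.zsmul_mem (h 1 (by norm_num)) _)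
    split_ifs
    · exact S.zero_mem
    · exact h _ (by have := idx_lt p; omega)
  have k2 : ∀ c ∈ golayCode, ∃ z ∈ S, (∀ i, (z i - 2 * lf c i) % 4 = 0) ∧ (∑ i, z i) % 8 = 0 := by
    intro c hc
    rw [code_eq] at hc
    induction hc using Submodule.span_induction with
    | mem c hc =>
      obtain ⟨g, hg, rfl⟩ := hc
      have a : ∀ g ∈ basis, ∃ k < 37, (∀ i, gn k (idx i) = 2 * lf (wd g) i) ∧
          sm (gn k) % 8 = 0 := by
        simp only [lf_wd]
        decide +kernel
      obtain ⟨k, hk, e1, e2⟩ := a g hg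
      exact ⟨_, h k hk, fun i => by simp [e1], by rwa [← sm_eq]⟩
    | zero => exact ⟨0, S.zero_mem, fun i => by simp [lf], by simp⟩
    | add c d _ _ h1 h2 =>
      obtain ⟨y, hy, a1, a2⟩ := h1
      obtain ⟨z, hz, b1, b2⟩ := h2
      refine ⟨y + z, S.add_mem hy hz, fun i => ?_, ?_⟩
      · have := a1 i
        have := b1 i
        have := lf_add c d i
        unfold Int.ModEq at this
        rw [Pi.add_apply]
        omega
      · simp only [Pi.add_apply, Finset.sum_add_distrib]
        omega
    | smul a c _ h1 =>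
      have : a = 0 ∨ a = 1 := by revert a; decide
      rcases this with rfl | rfl
      · exact ⟨0, S.zero_mem, fun i => by simp [lf], by simp⟩
      · rwa [one_smul]
  intro x hx
  obtain ⟨m, c, hc, h1, h2⟩ := lp_of_mem hx
  obtain ⟨z, hz, a1, a2⟩ := k2 c hc
  have e : x = (x - m • (fun p => gn 0 (idx p)) - z) + m • (fun p => gn 0 (idx p)) + z := by abel
  rw [e]
  refine S.add_mem (S.add_mem (k4 _ (fun i => ?_) ?_) (S.zsmul_mem (h 0 (by norm_num)) _)) hz
  · have b1 := h1 i
    have b2 := a1 i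
    have b3 : gn 0 (idx i) = -3 ∨ gn 0 (idx i) = 1 := by
      unfold gn
      simp only [if_true]
      split_ifs <;> simp
    unfold Int.ModEq at b1
    simp only [Pi.sub_apply, Pi.smul_apply, smul_eq_mul]
    rcases b3 with b3 | b3 <;> rw [b3] <;> omega
  · have b3 : sm (gn 0) = 20 := by decide +kernel
    rw [sm_eq] at b3
    unfold Int.ModEq at h2
    simp only [Pi.sub_apply, Pi.smul_apply, smul_eq_mul, Finset.sum_sub_distrib, ← Finset.mul_sum, b3]
    omega

/-- The product of a packed matrix, or of its transpose, with a vector. -/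
noncomputable def mv (c : ℕ) (t : Bool) (f : ℕ → ℤ) (i : ℕ) : ℤ :=
  sm fun j => Int.mul (ent c (@Bool.rec (fun _ => ℕ) (Nat.add (Nat.mul 24 i) j)
    (Nat.add (Nat.mul 24 j) i) t)) (f j)

theorem mv_false (c : ℕ) (f : ℕ → ℤ) (p : GolayPt) :
    (mat c *ᵥ fun q => f (idx q)) p = mv c false f (idx p) := by
  rw [mv, sm_eq]
  rfl

theorem mv_true (c : ℕ) (f : ℕ → ℤ) (p : GolayPt) :
    ((mat c)ᵀ *ᵥ fun q => f (idx q)) p = mv c true f (idx p) := by
  rw [mv, sm_eq]
  rfl

/-- An eighth of the matrix maps the lattice into itself. -/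
def Pres (N : Matrix GolayPt GolayPt ℤ) : Prop :=
  ∀ x : leechLattice, ∃ y : leechLattice, N *ᵥ x.1 = (8 : ℤ) • y.1

theorem pres_of_gens {N : Matrix GolayPt GolayPt ℤ}
    (h : ∀ k < 37, ∃ y ∈ leechLattice, (N *ᵥ fun p => gn k (idx p)) = (8 : ℤ) • y) : Pres N := by
  let S : AddSubgroup (GolayPt → ℤ) :=
    (leechLattice.map (DistribSMul.toAddMonoidHom _ (8 : ℤ))).comap (mulVecLin N).toAddMonoidHom
  intro x
  obtain ⟨y, hy, e⟩ := le_of_gens S (fun k hk => by
    obtain ⟨y, hy, e⟩ := h k hk
    exact ⟨y, hy, e.symm⟩) x.2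
  exact ⟨⟨y, hy⟩, e.symm⟩

noncomputable def presChk (c : ℕ) (t : Bool) (k : ℕ) : Bool :=
  lpChk (fun i => mv c t (gn k) i / 8) && (List.range 24).all fun i => mv c t (gn k) i % 8 == 0

theorem presChk_spec {c k : ℕ} {t : Bool} (h : presChk c t k = true) :
    ∃ y ∈ leechLattice, (fun p => mv c t (gn k) (idx p)) = (8 : ℤ) • y := by
  unfold presChk at h
  simp only [Bool.and_eq_true, List.all_eq_true, List.mem_range, beq_iff_eq] at h
  refine ⟨_, mem_of_lpChk h.1, ?_⟩
  ext p
  have := h.2 _ (idx_lt p)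
  simp only [Pi.smul_apply, smul_eq_mul]
  omega

/-- An eighth of the packed matrix is an automorphism of the lattice. -/
noncomputable def autChk (c : ℕ) : Bool :=
  ((List.range 37).all fun k => presChk c false k && presChk c true k) &&
    (List.range 24).all fun i => (List.range 24).all fun j =>
      mv c true (fun k => ent c (24 * k + j)) i == if i = j then 64 else 0

structure IsAut (N : Matrix GolayPt GolayPt ℤ) : Prop where
  fwd : Pres N
  bwd : Pres Nᵀ
  orth : Nᵀ * N = (64 : ℤ) • 1

theorem isAut_of_chk {c : ℕ} (h : autChk c = true) : IsAut (mat c) := by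
  unfold autChk at h
  simp only [Bool.and_eq_true, List.all_eq_true, List.mem_range, beq_iff_eq] at h
  refine ⟨pres_of_gens fun k hk => ?_, pres_of_gens fun k hk => ?_, ?_⟩
  · obtain ⟨y, hy, e⟩ := presChk_spec (h.1 k hk).1
    exact ⟨y, hy, (funext (mv_false c _)).trans e⟩
  · obtain ⟨y, hy, e⟩ := presChk_spec (h.1 k hk).2
    exact ⟨y, hy, (funext (mv_true c _)).trans e⟩
  · ext p q
    have := h.2 _ (idx_lt p) _ (idx_lt q)
    rw [← mv_true] at this
    rw [Matrix.smul_apply, one_apply, smul_eq_mul]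
    refine Eq.trans this ?_
    by_cases e : p = q
    · simp [e]
    · rw [if_neg e, if_neg fun h => e (by rw [← pt_idx p, h, pt_idx]), mul_zero]

theorem cancel8 {x y : GolayPt → ℤ} (h : (8 : ℤ) • x = (8 : ℤ) • y) : x = y :=
  smul_right_injective _ (by norm_num) h

variable {N : Matrix GolayPt GolayPt ℤ}

theorem IsAut.orth' (h : IsAut N) : N * Nᵀ = (64 : ℤ) • 1 := by
  have h1 : N.det ≠ 0 := by
    intro e
    have := congrArg det h.orth
    rw [det_mul, e, mul_zero, det_smul, det_one] at this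
    exact absurd this (by positivity)
  have h2 : (N * Nᵀ - (64 : ℤ) • 1) * N = 0 := by
    rw [sub_mul, mul_assoc, h.orth, Matrix.mul_smul, Matrix.smul_mul, mul_one, one_mul, sub_self]
  have h3 := congrArg (· * N.adjugate) h2
  simp only [mul_assoc, mul_adjugate, zero_mul, Matrix.mul_smul, mul_one] at h3
  exact sub_eq_zero.mp ((smul_eq_zero.mp h3).resolve_left h1)

theorem back {A B : Matrix GolayPt GolayPt ℤ} (e : B * A = (64 : ℤ) • 1) {x y z : GolayPt → ℤ}
    (h1 : A *ᵥ x = (8 : ℤ) • y) (h2 : B *ᵥ y = (8 : ℤ) • z) : z = x := by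
  apply cancel8
  apply cancel8
  rw [← h2, ← mulVec_smul, ← h1, mulVec_mulVec, e, smul_mulVec, one_mulVec, smul_smul]
  rfl

/-- The inverse of the automorphism given by a matrix. -/
noncomputable def IsAut.prm (h : IsAut N) : Equiv.Perm leechLattice where
  toFun x := (h.bwd x).choose
  invFun x := (h.fwd x).choose
  left_inv x := Subtype.ext (back h.orth' (h.bwd x).choose_spec (h.fwd _).choose_spec)
  right_inv x := Subtype.ext (back h.orth (h.fwd x).choose_spec (h.bwd _).choose_spec)

theorem IsAut.prm_inv (h : IsAut N) {x y : leechLattice} (e : N *ᵥ x.1 = (8 : ℤ) • y.1) :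
    h.prm⁻¹ x = y := Subtype.ext (cancel8 ((h.fwd x).choose_spec.symm.trans e))

theorem IsAut.prm_mem (h : IsAut N) : h.prm ∈ Co0 := by
  have sp : ∀ x, Nᵀ *ᵥ x.1 = (8 : ℤ) • (h.prm x).1 := fun x => (h.bwd x).choose_spec
  refine ⟨fun v w => Subtype.ext (cancel8 ?_), fun v => ?_⟩
  · rw [← sp, AddSubgroup.coe_add, AddSubgroup.coe_add, smul_add, ← sp, ← sp, mulVec_add]
  · have e : ∀ x : GolayPt → ℤ, sqNorm x = x ⬝ᵥ x := fun x => by simp [sqNorm, dotProduct, sq]
    have h1 : (Nᵀ *ᵥ v.1) ⬝ᵥ (Nᵀ *ᵥ v.1) = 64 * (v.1 ⬝ᵥ v.1) := by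
      rw [dotProduct_mulVec, vecMul_transpose, mulVec_mulVec, h.orth', smul_mulVec, one_mulVec,
        smul_dotProduct, smul_eq_mul]
    rw [sp, smul_dotProduct, dotProduct_smul, smul_eq_mul, smul_eq_mul] at h1
    rw [e, e]
    omega

theorem dot_map {g : Equiv.Perm leechLattice} (hg : g ∈ Co0) (x y : leechLattice) :
    dotInt (g x).1 (g y).1 = dotInt x.1 y.1 := by
  have e : ∀ x y : leechLattice, sqNorm (x + y).1 = sqNorm x.1 + 2 * dotInt x.1 y.1 + sqNorm y.1 :=
    fun x y => by
      simp only [sqNorm, dotInt, AddSubgroup.coe_add, Pi.add_apply, Finset.mul_sum,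
        ← Finset.sum_add_distrib]
      exact Finset.sum_congr rfl fun i _ => by ring
  have h1 := e (g x) (g y)
  rw [← hg.1, hg.2, hg.2, hg.2, e] at h1
  omega

/-- A lattice vector from a packed vector. -/
noncomputable def lv (c : ℕ) : leechLattice :=
  if h : lpChk (ent c) = true then ⟨vec c, mem_of_lpChk h⟩ else 0

theorem lv_val {c : ℕ} (h : lpChk (ent c) = true) : (lv c).1 = vec c := by rw [lv, dif_pos h]

/-- An automorphism from a packed matrix. -/
noncomputable def au (c : ℕ) : Equiv.Perm leechLattice :=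
  if h : autChk c = true then (isAut_of_chk h).prm else 1

theorem au_mem (c : ℕ) : au c ∈ Co0 := by
  unfold au
  split_ifs
  · exact IsAut.prm_mem _
  · exact one_mem _

noncomputable def actChk (c a b : ℕ) : Bool :=
  (List.range 24).all fun i => mv c false (ent a) i == 8 * ent b i

theorem au_inv {c a b : ℕ} (hc : autChk c = true) (ha : lpChk (ent a) = true)
    (hb : lpChk (ent b) = true) (h : actChk c a b = true) : (au c)⁻¹ (lv a) = lv b := by
  rw [au, dif_pos hc]
  apply IsAut.prm_inv
  rw [lv_val ha, lv_val hb]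
  ext p
  unfold actChk at h
  simp only [List.all_eq_true, List.mem_range, beq_iff_eq] at h
  exact (mv_false c _ p).trans (h _ (idx_lt p))

theorem lv_inj {a b : ℕ} (ha : lpChk (ent a) = true) (hb : lpChk (ent b) = true)
    (e : lv a = lv b) : ∀ i < 24, ent a i = ent b i := by
  intro i hi
  have := congrFun ((lv_val ha).symm.trans ((congrArg Subtype.val e).trans (lv_val hb))) (pt i)
  rwa [vec, vec, idx_pt i hi] at this

/-- The labelled action of packed matrices on packed vectors. -/
theorem lab {A Z : ℕ → ℕ} {tab : ℕ → ℕ → ℕ} {n m : ℕ}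
    (hA : ∀ x, 1 ≤ x → x < m → autChk (A x) = true) (hZ : ∀ p < n, lpChk (ent (Z p)) = true)
    (ht : ∀ x, 1 ≤ x → x < m → ∀ p < n, tab x p < n ∧ actChk (A x) (Z p) (Z (tab x p)) = true)
    (hi : ∀ p < n, ∀ q < n, (∀ i < 24, ent (Z p) i = ent (Z q) i) → p = q) :
    Lab (MonoidHom.id _) (fun x => au (A x)) (fun p => lv (Z p)) tab n m :=
  ⟨fun x h1 h2 p hp => ⟨au_inv (hA x h1 h2) (hZ p hp) (hZ _ (ht x h1 h2 p hp).1)
    (ht x h1 h2 p hp).2, (ht x h1 h2 p hp).1⟩,
   fun p hp q hq e => hi p hp q hq (lv_inj (hZ p hp) (hZ q hq) e)⟩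

end Cfsg.H6.Leech
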