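import Cfsg.Agent.H6.Leech

/-! The hundred vectors of the Higman–Sims group and the upper bound for its order. -/

set_option autoImplicit false
set_option maxRecDepth 100000

namespace Cfsg.H6.Leech

open Cfsg.H4.Golay Cfsg.Spor

def PP (bs : List ℕ) (b p : ℕ) : Bool :=
  Nat.ble 24 b || Nat.ble 24 p || ((p == b || !bs.elem p) &&
    (!([23, 0, 1, 2, 3].all bs.elem) || Nat.testBit 8536111 p == Nat.testBit 8536111 b))

theorem link1 : link 8536111 8388623 [2 ^ 23, 2 ^ 0, 2 ^ 1, 2 ^ 2, 2 ^ 3] = true := by decide +kernel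

theorem chain1 : chain [(8391797, 8388671), (9963547, 8388671), (1188915, 8390719), (3277413, 9964671), (145176, 10103935), (13148440, 12201599), (6554826, 12205951), (9748745, 16433023)] ([23,0,1,2,3,5,4].map (2 ^ ·)) = true := by decide +kernel

theorem card_M22_le : Nat.card (fixS M24.subtype ([0, 23].map pt)) ≤ 443520 := by
  have h := card_le_of_chain M24.subtype pt 24 (fun v => ⟨_, idx_lt v, pt_idx v⟩) PP ?_ [1,2,3,5,4] [0, 23]
  · have e : fixS M24.subtype (([1,2,3,5,4].reverse ++ [0, 23]).map pt) = ⊥ := by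
      rw [eq_bot_iff]
      intro g hg
      refine Subtype.ext (eq_one_of_chain g.2 _ _ chain1 fun m hm => ?_)
      obtain ⟨i, hi, rfl⟩ := List.mem_map.mp hm
      exact inv_pow (by revert i; decide) (hg _ (List.mem_map_of_mem (by revert i; decide)))
    rw [e, Subgroup.card_bot, mul_one] at h
    exact h.trans (by decide +kernel)
  · intro bs b p g hg hv
    have hv' : g.1 (pt p) = pt b := by
      rw [Equiv.Perm.inv_eq_iff_eq] at hv
      exact hv.symm
    unfold PP
    simp only [Bool.or_eq_true, Nat.ble_eq, Bool.and_eq_true, beq_iff_eq, Bool.not_eq_true']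
    by_cases hb : 24 ≤ b
    · exact Or.inl (Or.inl hb)
    by_cases hp : 24 ≤ p
    · exact Or.inl (Or.inr hp)
    refine Or.inr ⟨?_, ?_⟩
    · by_cases h1 : p ∈ bs
      · left
        have h2 : g.1 (pt p) = pt p := hg _ (List.mem_map_of_mem h1)
        rw [← idx_pt p (by omega), ← h2, hv', idx_pt b (by omega)]
      · exact Or.inr (by simpa using h1)
    · cases h1 : [23, 0, 1, 2, 3].all bs.elem
      · exact Or.inl rfl
      · right
        have h2 : ∀ i ∈ [23, 0, 1, 2, 3], H4.Golay.Inv g.1 (2 ^ i) := fun i hi =>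
          inv_pow (by revert i; decide) (hg _ (List.mem_map_of_mem
            (List.mem_of_elem_eq_true (List.all_eq_true.mp h1 i hi))))
        have h3 := inv_of_link g.2 link1 (by simpa using h2) (pt p)
        rw [hv', idx_pt b (by omega), idx_pt p (by omega)] at h3
        exact h3.symm

/-- The hundred vectors and two more. -/
noncomputable def Z : ℕ → ℕ := nthN [0x62108421084210842108421084210c, 0x4a5294a5294a5294a5294a5294a4a9, 0x4a5294a5294a5294a5294a52949529, 0x4a5294a5294a5294a5294a5292a529, 0x4a5294a5294a5294a5294a5254a529, 0x4a5294a5294a5294a5294a4a94a529, 0x4a5294a5294a5294a529495294a529, 0x4a5294a5294a5294a5292a5294a529, 0x4a5294a5294a5294a5254a5294a529, 0x4a5294a5294a5294a4a94a5294a529, 0x4a5294a5294a529495294a5294a529, 0x4a5294a5294a5292a5294a5294a529, 0x4a5294a5294a5254a5294a5294a529, 0x4a5294a5294a4a94a5294a5294a529, 0x4a5294a529495294a5294a5294a529, 0x4a5294a5292a5294a5294a5294a529, 0x4a5294a5254a5294a5294a5294a529, 0x4a5294a4a94a5294a5294a5294a529, 0x4a529495294a5294a5294a5294a529, 0x4a5292a5294a5294a5294a5294a529,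 0x4a5254a5294a5294a5294a5294a529, 0x4a4a94a5294a5294a5294a5294a529, 0x495294a5294a5294a5294a5294a529, 0x521084210842108529084294a4290a, 0x5210842108421484290a429085214a, 0x52108421084290a52948421085210a, 0x5210842108521084210a5214a4214a, 0x52108421085214852108521085290a, 0x521084210a429084290a521084290a, 0x521084210a5214a4214a421084210a, 0x521084210a5290852108429084214a, 0x52108421484210a421484290a4214a, 0x52108421484290842108421485294a, 0x5210842148429485210a4210a4210a, 0x521084214a4214842108529484210a, 0x521084214a52108429084210a5210a, 0x52108429084210a5210a421084294a, 0x52108429084214a421084214a5210a, 0x52108429084294842148429084290a, 0x52108429085210a42908529084210a, 0x521084290a4210842148521085214a, 0x5210842948421084294a421484210a, 0x521085210842148429485210a4210a, 0x52108521085210842148429485210a, 0x52108521085290a421084210a4290a, 0x521085210a4210a42908421484214a, 0x52108521484210a4210a521085210a, 0x521085214a4210852148421084290a, 0x52108529084290852108521484210a, 0x521085290a421084210a4290a4210a, 0x52108529485214842108421084214a,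 0x5210a42108421085214a529084210a, 0x5210a421084294a42108521084214a, 0x5210a421085210842948421084294a, 0x5210a4210a4210a42108429085290a, 0x5210a4210a42908421484214a4210a, 0x5210a421485210a52108421484210a, 0x5210a42908529084210a421085210a, 0x5210a4290a4214852908421084210a, 0x5210a4294842108421085210a4290a, 0x5210a5210842108521084210a5214a, 0x5210a52108421484210a421484290a, 0x5210a521484290842908429084210a, 0x5214842108421084214a4210a5290a, 0x52148421084214852148421484214a, 0x52148421084290a4210a429484210a, 0x521484210a4210a521085210a4210a, 0x52148421484214a42908421084290a, 0x52148421485290842148521084210a, 0x521484290842908429084210a4214a, 0x521484290a5210842108421484290a, 0x52148429484210852108429085210a, 0x52148521084210842108529084294a, 0x5214852108521085290a421084210a, 0x521485210a4294842108421085210a, 0x5214a421084210842908521485210a, 0x5214a4210852148421084290a4210a, 0x5214a4214a421084210a421084214a, 0x5214a529084210a42148421084210a, 0x52908421084210a42148521484290a, 0x529084210842908421085290a5210a, 0x52908421085294842908421484210a,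 0x529084210a421085210a421485210a, 0x529084210a42148421084210a4294a, 0x52908421484210852908521084214a, 0x5290842148521084210a429084290a, 0x529084290852108521484210a4210a, 0x529084294a4290a42108421084210a, 0x52908521084214a52108429084210a, 0x5290852108429084214a421084214a, 0x52908529084210842908421085290a, 0x5290a421084210a4290a4210a4210a, 0x5290a421484214842148421085210a, 0x5290a429084210842108429484214a, 0x5290a5210a5210842108521084210a, 0x52948421085210a42108421085214a, 0x529484210a4210842948429084210a, 0x5294842908421484210a521084210a, 0x529485214842108421084214a4210a, 0x5294a421084290852108421084290a, 0x19ce739ce739ce739ce739ce739ce7, 0x39ce739ce739ce739ce739ce739ce3]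

theorem hZ : ∀ p < 102, lpChk (ent (Z p)) = true := by decide +kernel

/-- The vector with a number. -/
noncomputable def zv (p : ℕ) : leechLattice := lv (Z p)

theorem zv_val {p : ℕ} (h : p < 102) (i : GolayPt) : (zv p).1 i = ent (Z p) (idx i) := by
  rw [zv, lv_val (hZ p h)]
  rfl

theorem Z_inj : ∀ p < 102, ∀ q < 102, (∀ i < 24, ent (Z p) i = ent (Z q) i) → p = q := by
  decide +kernel

theorem zv100 : zv 100 = leechV := Subtype.ext (funext fun i => by
  rw [zv_val (by norm_num)]
  revert i
  decide +kernel)

theorem zv101 : zv 101 = leechV + leechU' := Subtype.ext (funext fun i => by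
  rw [zv_val (by norm_num)]
  revert i
  decide +kernel)

/-- The points other than the two special ones. -/
def T : Finset GolayPt := (Finset.univ.erase none).erase (some 0)

theorem sum_T (f : GolayPt → ℤ) : ∑ i, f i = f none + f (some 0) + ∑ i ∈ T, f i := by
  rw [T, add_assoc, Finset.add_sum_erase _ _ (by simp), Finset.add_sum_erase _ _ (by simp)]

theorem mem_T {i : GolayPt} : i ∈ T ↔ i ≠ none ∧ i ≠ some 0 := by simp [T, and_comm]

theorem card_T : T.card = 22 := by decide +kernel

def f0 (m i : ℕ) : ℤ :=
  if m.testBit i then 2 else if i = 0 ∨ i = 23 then 4 else 0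

theorem span0 : allSpan (fun m => decide (sm (f0 m) + 4 * f0 m 23 ≠ 24) ||
    decide (f0 m 0 ≠ f0 m 23) || (List.range 100).any fun p =>
      (List.range 24).all fun i => ent (Z p) i == f0 m i) basis 0 = true := by decide +kernel

theorem span1 : allSpan (fun m => decide (4 < sm fun i => if m.testBit i then 1 else 0) ||
    (List.range 24).all fun i => !m.testBit i) basis 0 = true := by decide +kernel

theorem enum {z : leechLattice} (h1 : sqNorm z.1 = 32) (h2 : dotInt z.1 vecV = -24)
    (h3 : dotInt z.1 vecU' = 0) : ∃ p < 100, z = zv p := by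
  have hl := lp_of_mem z.2
  have e0 : z.1 (some 0) = z.1 none := by
    rw [dotInt, sum_T, Finset.sum_eq_zero fun i hi => by simp [vecU', mem_T.mp hi]] at h3
    simp [vecU'] at h3
    omega
  have e1 : ∑ i ∈ T, z.1 i = 24 - 6 * z.1 none := by
    rw [dotInt, sum_T, Finset.sum_congr rfl (g := fun i => -z.1 i)
      fun i hi => by simp [vecV, mem_T.mp hi], Finset.sum_neg_distrib] at h2
    simp [vecV] at h2
    omega
  have e2 : ∑ i ∈ T, z.1 i ^ 2 = 32 - 2 * z.1 none ^ 2 := by
    rw [sqNorm, sum_T, e0] at h1
    omega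
  rcases Int.emod_two_eq_zero_or_one (z.1 none) with hp | hp
  · obtain ⟨c, hc, k⟩ := hl.norm (p := none) (r := 0) hp
    have n1 : ∀ i ∈ T, 0 ≤ z.1 i * (z.1 i - 2) := fun i _ => by
      have a := k i
      unfold Int.ModEq at a
      rcases le_or_gt (z.1 i) 0 with b | b
      · nlinarith
      · exact mul_nonneg (by omega) (by omega)
    have n2 : ∑ i ∈ T, z.1 i * (z.1 i - 2) = -2 * ((z.1 none - 2) * (z.1 none - 4)) := by
      rw [Finset.sum_congr rfl (g := fun i => z.1 i ^ 2 - 2 * z.1 i) fun i _ => by ring,
        Finset.sum_sub_distrib, ← Finset.mul_sum, e1, e2]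
      ring
    have n3 := Finset.sum_nonneg n1
    have n4 : z.1 none = 2 ∨ z.1 none = 4 := by
      have : 2 ≤ z.1 none := by nlinarith
      have : z.1 none ≤ 4 := by nlinarith
      omega
    have n5 := (Finset.sum_eq_zero_iff_of_nonneg n1).mp (by rcases n4 with a | a <;> rw [n2, a] <;> rfl)
    obtain ⟨m, hm, rfl⟩ := exists_mask span0 hc
    have n6 : ∀ i, z.1 i = f0 m (idx i) := fun i => by
      have a := k i
      rw [lf_wd] at a
      unfold Int.ModEq at a
      unfold f0
      by_cases b : i ∈ T
      · have c := mul_eq_zero.mp (n5 i b)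
        have d : ¬ (idx i = 0 ∨ idx i = 23) :=
          (by decide +kernel : ∀ i ∈ T, ¬ (idx i = 0 ∨ idx i = 23)) i b
        split_ifs at a ⊢ <;> omega
      · have c : z.1 i = z.1 none ∧ (idx i = 0 ∨ idx i = 23) := by
          rw [mem_T, not_and_or, not_not, not_not] at b
          rcases b with rfl | rfl
          · exact ⟨rfl, Or.inr rfl⟩
          · exact ⟨e0, Or.inl rfl⟩
        split_ifs at a ⊢ <;> omega
    simp only [Bool.or_eq_true, decide_eq_true_eq, List.any_eq_true, List.all_eq_true,
      List.mem_range, beq_iff_eq] at hm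
    rcases hm with (a | a) | ⟨p, hp, a⟩
    · refine absurd ?_ a
      rw [sm_eq, ← Finset.sum_congr rfl fun i _ => n6 i, sum_T, e1, e0, ← show _ = f0 m 23 from n6 none]
      ring
    · exact absurd ((n6 (some 0)).symm.trans (e0.trans (n6 none))) a
    · exact ⟨p, hp, Subtype.ext (funext fun i => by
        rw [zv_val (by omega), a _ (idx_lt i), n6])⟩
  · obtain ⟨c, hc, k⟩ := hl.norm (p := none) (r := 1) hp
    have n1 : ∑ i ∈ T, (z.1 i - 1) ^ 2 = 6 - 2 * z.1 none ^ 2 + 12 * z.1 none := by
      rw [Finset.sum_congr rfl (g := fun i => z.1 i ^ 2 - 2 * z.1 i + 1) fun i _ => by ring,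
        Finset.sum_add_distrib, Finset.sum_sub_distrib, ← Finset.mul_sum, e1, e2, Finset.sum_const,
        card_T]
      ring
    have n2 : ∑ _i ∈ T, (1 : ℤ) ≤ ∑ i ∈ T, z.1 i ^ 2 := Finset.sum_le_sum fun i _ => by
      have a := k i
      unfold Int.ModEq at a
      have : z.1 i ≠ 0 := by omega
      exact (one_le_sq_iff_one_le_abs _).mpr (Int.one_le_abs this)
    rw [Finset.sum_const, card_T, e2] at n2
    have n3 : 0 ≤ ∑ i ∈ T, (z.1 i - 1) ^ 2 := Finset.sum_nonneg fun i _ => sq_nonneg _
    have n4 : z.1 none = 1 := by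
      norm_num at n2
      have : 0 ≤ z.1 none := by nlinarith
      have : z.1 none ≤ 2 := by nlinarith
      omega
    rw [n4] at n1 e1
    obtain ⟨m, hm, rfl⟩ := exists_mask span1 hc
    have n5 : ∑ i, 4 * lf (wd m) i ≤ ∑ i, (z.1 i - 1) ^ 2 := Finset.sum_le_sum fun i _ => by
      have a := k i
      unfold Int.ModEq at a
      rcases lf_cases (wd m) i with b | b
      · rw [b]
        positivity
      · rw [b] at a ⊢
        rcases le_or_gt (z.1 i) 0 with d | d
        · have : z.1 i ≤ -1 := by omega
          nlinarith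
        · have : 3 ≤ z.1 i := by omega
          nlinarith
    rw [sum_T fun i => (z.1 i - 1) ^ 2, n1, e0, n4, ← Finset.mul_sum] at n5
    simp only [Bool.or_eq_true, decide_eq_true_eq, List.all_eq_true, List.mem_range,
      Bool.not_eq_true'] at hm
    rcases hm with a | a
    · rw [sm_eq, ← Finset.sum_congr rfl fun i _ => lf_wd m i] at a
      have : (4 : ℤ) < ∑ i, lf (wd m) i := a
      omega
    have n6 : ∀ i, z.1 i % 4 = 1 := fun i => by
      have b := k i
      rw [lf_wd, a _ (idx_lt i)] at b
      exact b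
    obtain ⟨j, hj, n7⟩ : ∃ j ∈ T, z.1 j < 1 := by
      by_contra hc
      push Not at hc
      have := Finset.sum_le_sum hc
      rw [Finset.sum_const, card_T, e1] at this
      norm_num at this
    rw [← Finset.add_sum_erase _ _ hj] at n1
    have n8 : 0 ≤ ∑ i ∈ T.erase j, (z.1 i - 1) ^ 2 := Finset.sum_nonneg fun i _ => sq_nonneg _
    have n9 : z.1 j = -3 := by
      have := n6 j
      have : -4 ≤ z.1 j := by nlinarith
      omega
    rw [n9] at n1
    have n10 := (Finset.sum_eq_zero_iff_of_nonneg fun i _ => sq_nonneg (z.1 i - 1)).mp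
      (by omega : ∑ i ∈ T.erase j, (z.1 i - 1) ^ 2 = 0)
    have n11 : ∀ j ∈ T, ∀ i, ent (Z (idx j)) (idx i) = if i = j then -3 else 1 := by decide +kernel
    refine ⟨idx j, by have := idx_lt j; omega, Subtype.ext (funext fun i => ?_)⟩
    rw [zv_val (by have := idx_lt j; omega), n11 j hj]
    split_ifs with b
    · rw [b, n9]
    · by_cases d : i ∈ T
      · have := pow_eq_zero_iff (two_ne_zero) |>.mp (n10 i (Finset.mem_erase.mpr ⟨b, d⟩))
        omega
      · rw [mem_T, not_and_or, not_not, not_not] at d
        rcases d with rfl | rfl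
        · exact n4
        · exact e0.trans n4

theorem dot_zv {p q : ℕ} (hp : p < 102) (hq : q < 102) :
    dotInt (zv p).1 (zv q).1 = sm fun i => ent (Z p) i * ent (Z q) i := by
  rw [sm_eq]
  exact Finset.sum_congr rfl fun i _ => by rw [zv_val hp, zv_val hq]

theorem map_add' {g : Equiv.Perm leechLattice} (hg : g ∈ Co0) (x y : leechLattice) :
    g (x + y) = g x + g y := hg.1 x y

theorem hs_iff {g : Equiv.Perm leechLattice} :
    g ∈ HS ↔ g ∈ Co0 ∧ g (zv 100) = zv 100 ∧ g (zv 101) = zv 101 := by
  rw [zv100, zv101]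
  constructor
  · rintro ⟨⟨h1, h2⟩, h3⟩
    have h2' : g leechV = leechV := h2
    have h3' : g leechU' = leechU' := h3
    exact ⟨h1, h2', by rw [map_add' h1, h2', h3']⟩
  · rintro ⟨h1, h2, h3⟩
    rw [map_add' h1, h2, add_right_inj] at h3
    exact ⟨⟨h1, h2⟩, h3⟩

theorem hs_maps {g : Equiv.Perm leechLattice} (hg : g ∈ HS) {p : ℕ} (hp : p < 100) :
    ∃ q < 100, g (zv p) = zv q := by
  obtain ⟨h1, h2, h3⟩ := hs_iff.mp hg
  have a : ∀ p < 100, (sm fun i => ent (Z p) i * ent (Z p) i) = 32 ∧
      (sm fun i => ent (Z p) i * ent (Z 100) i) = -24 ∧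
      (sm fun i => ent (Z p) i * ent (Z 101) i) = -24 := by decide +kernel
  have b := dot_map h1 (zv p) (zv 100)
  have c := dot_map h1 (zv p) (zv 101)
  rw [h2, dot_zv (by omega) (by norm_num), (a p hp).2.1, zv100] at b
  rw [h3, dot_zv (by omega) (by norm_num), (a p hp).2.2, zv101] at c
  refine enum ?_ b ?_
  · rw [h1.2, ← (a p hp).1, ← dot_zv (by omega) (by omega)]
    simp [sqNorm, dotInt, sq]
  · have : dotInt (g (zv p)).1 (leechV + leechU').1 =
        dotInt (g (zv p)).1 leechV.1 + dotInt (g (zv p)).1 vecU' := by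
      simp [dotInt, mul_add, Finset.sum_add_distrib, leechU']
    omega

/-- Eight times a unit vector. -/
def E (i : GolayPt) : leechLattice :=
  ⟨fun j => if j = i then 8 else 0, mem_of_lp ⟨0, 0, Submodule.zero_mem _, fun j => by
    simp only [lf, Pi.zero_apply, if_true]
    split_ifs <;> decide, by simp⟩⟩

theorem dot_E (x : leechLattice) (i : GolayPt) : dotInt x.1 (E i).1 = x.1 i * 8 := by
  simp [dotInt, E]

theorem E_none : E none + zv 100 = zv 0 + zv 101 := Subtype.ext (funext fun i => by
  simp only [AddSubgroup.coe_add, Pi.add_apply, zv_val (by norm_num : 100 < 102),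
    zv_val (by norm_num : 101 < 102), zv_val (by norm_num : 0 < 102), E]
  revert i
  decide +kernel)

theorem E_zero : E (some 0) + zv 101 = zv 0 + zv 100 := Subtype.ext (funext fun i => by
  simp only [AddSubgroup.coe_add, Pi.add_apply, zv_val (by norm_num : 100 < 102),
    zv_val (by norm_num : 101 < 102), zv_val (by norm_num : 0 < 102), E]
  revert i
  decide +kernel)

theorem E_T {j : GolayPt} (hj : j ∈ T) :
    E j + (zv (idx j) + zv (idx j) + (zv 0 + zv 100 + zv 101)) = 0 := Subtype.ext (funext fun i => by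
  simp only [AddSubgroup.coe_add, Pi.add_apply, zv_val (by norm_num : 100 < 102),
    zv_val (by norm_num : 101 < 102), zv_val (by norm_num : 0 < 102), E,
    zv_val (by have := idx_lt j; omega : idx j < 102), AddSubgroup.coe_zero, Pi.zero_apply]
  revert i j
  decide +kernel)

theorem map_zero' {g : Equiv.Perm leechLattice} (hg : g ∈ Co0) : g 0 = 0 := by
  have := map_add' hg 0 0
  rw [add_zero] at this
  exact left_eq_add.mp this

theorem map_E {g : Equiv.Perm leechLattice} (hg : g ∈ HS) (h0 : g (zv 0) = zv 0) :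
    g (E none) = E none ∧ g (E (some 0)) = E (some 0) ∧
      ∀ i ∈ T, ∀ j ∈ T, g (zv (idx i)) = zv (idx j) → g (E i) = E j := by
  obtain ⟨h1, h2, h3⟩ := hs_iff.mp hg
  refine ⟨?_, ?_, fun i hi j hj e => ?_⟩
  · have := congrArg g E_none
    rwa [map_add' h1, map_add' h1, h0, h2, h3, ← E_none, add_left_inj] at this
  · have := congrArg g E_zero
    rwa [map_add' h1, map_add' h1, h0, h2, h3, ← E_zero, add_left_inj] at this
  · have := congrArg g (E_T hi)
    simp only [map_add' h1] at this
    rwa [h0, h2, h3, e, map_zero' h1, ← E_T hj, add_left_inj] at this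

theorem coord {g : Equiv.Perm leechLattice} (hg : g ∈ Co0) {i j : GolayPt} (e : g (E i) = E j)
    (x : leechLattice) : (g x).1 j = x.1 i := by
  have := dot_map hg x (E i)
  rw [e, dot_E, dot_E] at this
  omega

/-- Faithfulness on the labelled vectors. -/
theorem eq_one {g : Equiv.Perm leechLattice} (hg : g ∈ HS) (h : ∀ p < 23, g (zv p) = zv p) :
    g = 1 := by
  obtain ⟨a, b, c⟩ := map_E hg (h 0 (by norm_num))
  refine Equiv.ext fun x => Subtype.ext (funext fun i => coord (hs_iff.mp hg).1 ?_ x)
  by_cases d : i ∈ T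
  · exact c i d i d (h _ (by revert i; decide +kernel))
  · rw [mem_T, not_and_or, not_not, not_not] at d
    rcases d with rfl | rfl
    · exact a
    · exact b

theorem monomial {g : Equiv.Perm leechLattice} (hg : g ∈ HS) (h0 : g (zv 0) = zv 0) :
    ∃ π : fixS M24.subtype ([0, 23].map pt), ∀ i, g (E i) = E (π.1.1 i) := by
  obtain ⟨a, b, c⟩ := map_E hg h0
  have h1 := (hs_iff.mp hg).1
  have k : ∀ i, ∃ j, g (E i) = E j := fun i => by
    by_cases d : i ∈ T
    · obtain ⟨q, hq, e⟩ := hs_maps hg (p := idx i) (by have := idx_lt i; omega)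
      have e1 := dot_map h1 (zv (idx i)) (zv 0)
      rw [h0, e, dot_zv (by omega) (by norm_num),
        dot_zv (by have := idx_lt i; omega) (by norm_num)] at e1
      have e2 : ∀ i ∈ T, (sm fun k => ent (Z (idx i)) k * ent (Z 0) k) = 8 := by decide +kernel
      have e3 : ∀ q < 100, (sm fun k => ent (Z q) k * ent (Z 0) k) = 8 →
          pt q ∈ T ∧ idx (pt q) = q := by decide +kernel
      obtain ⟨e4, e5⟩ := e3 q hq (e1.trans (e2 i d))
      exact ⟨_, c i d _ e4 (by rw [e5, e])⟩
    · rw [mem_T, not_and_or, not_not, not_not] at d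
      rcases d with rfl | rfl
      · exact ⟨_, a⟩
      · exact ⟨_, b⟩
  have Einj : ∀ i j, E i = E j → i = j := fun i j e => by
    by_contra hne
    have := congrFun (congrArg Subtype.val e) i
    simp [E, hne] at this
  choose f hf using k
  have hinj : Function.Injective f := fun i j e =>
    Einj _ _ (g.injective (by rw [hf, hf, e]))
  let π : Equiv.Perm GolayPt := Equiv.ofBijective f (Finite.injective_iff_bijective.mp hinj)
  have hπ : π ∈ M24 := mem_M24 fun b hb => by
    have m1 : ∀ b ∈ basis, lpChk (fun i => if b.testBit i then 2 else 0) = true := by decide +kernel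
    let y := g⁻¹ ⟨_, mem_of_lpChk (m1 b hb)⟩
    have m2 : ∀ i, y.1 i = 2 * lf (wd b ∘ π) i := fun i => by
      rw [← coord h1 (hf i) y, show lf (wd b ∘ π) i = lf (wd b) (f i) from rfl, lf_wd]
      simp only [y, Equiv.Perm.coe_inv, Equiv.apply_symm_apply]
      split_ifs <;> rfl
    obtain ⟨c, hc, m3⟩ := (lp_of_mem y.2).norm (p := none) (r := 0) (by
      unfold Int.ModEq
      rw [m2]
      omega)
    convert hc using 1
    ext i
    have m4 := m3 i
    rw [m2] at m4
    unfold lf at m4
    revert m4
    generalize (wd b ∘ π) i = s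
    generalize c i = t
    revert s t
    decide
  refine ⟨⟨⟨π, hπ⟩, fun p hp => ?_⟩, hf⟩
  simp only [List.map_cons, List.map_nil, List.mem_cons, List.not_mem_nil, or_false] at hp
  rcases hp with rfl | rfl
  · exact Einj _ _ ((hf _).symm.trans b)
  · exact Einj _ _ ((hf _).symm.trans a)

theorem card_stab : Finite (fixS HS.subtype [zv 0]) ∧ Nat.card (fixS HS.subtype [zv 0]) ≤ 443520 := by
  have k : ∀ g : fixS HS.subtype [zv 0], ∃ π : fixS M24.subtype ([0, 23].map pt),
      ∀ i, g.1.1 (E i) = E (π.1.1 i) := fun g => monomial g.1.2 (g.2 _ List.mem_cons_self)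
  choose f hf using k
  have hinj : Function.Injective f := fun g h e => Subtype.ext (Subtype.ext (Equiv.ext fun x =>
    Subtype.ext (funext fun j => by
      obtain ⟨i, rfl⟩ := (f g).1.1.surjective j
      rw [coord (hs_iff.mp g.1.2).1 (hf g i), e, coord (hs_iff.mp h.1.2).1 (hf h i)])))
  exact ⟨Finite.of_injective f hinj, (Nat.card_le_card_of_injective f hinj).trans card_M22_le⟩

theorem card_HS : Finite HS ∧ Nat.card HS ≤ 44352000 := by
  have h1 : orb HS.subtype (fixS HS.subtype []) (zv 0) ⊆ zv '' (Finset.range 100 : Set ℕ) := by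
    rintro _ ⟨g, _, rfl⟩
    obtain ⟨q, hq, e⟩ := hs_maps (HS.inv_mem g.2) (p := 0) (by norm_num)
    exact ⟨q, by simpa using hq, e.symm⟩
  have h2 := (Finset.finite_toSet (Finset.range 100)).image zv
  have h3 := card_fixS_cons HS.subtype (zv 0) []
  have h4 := (Set.ncard_le_ncard h1 h2).trans (Set.ncard_image_le (Finset.finite_toSet _))
  rw [Set.ncard_coe_finset, Finset.card_range] at h4
  have := card_stab.1
  have h5 : 0 < (orb HS.subtype (fixS HS.subtype []) (zv 0)).ncard :=
    (Set.ncard_pos (h2.subset h1)).mpr ⟨_, mem_orb_self _ _ _⟩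
  rw [fixS_nil, Subgroup.card_top] at h3
  rw [fixS_nil] at h4 h5
  refine ⟨Nat.finite_of_card_ne_zero ?_, ?_⟩
  · rw [h3]
    exact Nat.mul_ne_zero h5.ne' Nat.card_pos.ne'
  · rw [h3]
    exact Nat.mul_le_mul h4 card_stab.2

end Cfsg.H6.Leech
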